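import Mathlib
import Cfsg.Prelude.Def_Characters
import Cfsg.Prelude.Def_Blocks
import Cfsg.Agent.Characters.Linear
import Cfsg.Agent.H692.RealOver
import Cfsg.Agent.H692.Cliff
import Cfsg.Agent.H692.NSyl
set_option linter.all false

/-!
# Groups whose real irreducible characters have degree prime to `p`: the key lemma

If `N` is a minimal normal subgroup, an elementary abelian `r`-group with `r ≠ p`, and `R / N` is a
normal `p`-subgroup of `G / N` with `[N, R] ≠ 1`, then every irreducible character over a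
nontrivial character of `N` has degree divisible by `p`, and there is a real-valued one unless `r`
is odd and all elements of 2-power order centralize `N`.
-/

set_option autoImplicit false
open Cfsg

namespace Cfsg.Agent.H692.KeyReal

open Cfsg.Agent.Characters.Core Cfsg.Agent.Characters.Clifford Cfsg.Agent.H692.RealAct
open Cfsg.Agent.H692.SqRoot Cfsg.Agent.H692.RealOver Cfsg.Agent.H692.Cliff Cfsg.Agent.H692.NSyl
open scoped ComplexConjugate

universe u
variable {G : Type u} [Group G]

/-- Parity argument: if the permutation character on the cosets of `H` contains `φ` (on `N`) an odd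
number of times and `φ` is conjugate to its complex conjugate, there is a real-valued irreducible
character of `G` over `φ` and over the trivial character of `H`. -/
theorem exists_real_of_subgroup [Fintype G] (N : Subgroup G) [hN : N.Normal] [Fintype N]
    (H : Subgroup G) [Fintype H] {φ : N → ℂ} (hφ : IsIrrCharacter N φ)
    (hconj : ∃ g : G, ∀ n : N, φ (MulAut.conjNormal g n) = conj (φ n)) (m : ℕ) (hm : Odd m)
    (hin : classInner (fun n : N => indFun H (fun _ => (1 : ℂ)) n) φ = m) :
    ∃ χ : IrrCharacter G, (∀ g, ((χ : G → ℂ) g).im = 0) ∧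
      (∃ e : ℕ, Odd e ∧ classInner (fun n : N => (χ : G → ℂ) n) φ = e) ∧
      ∃ a : ℕ, Odd a ∧ classInner (fun s : H => (χ : G → ℂ) s) (fun _ => (1 : ℂ)) = a := by
  classical
  have hfin : Finite (IrrCharacter G) := finite_irr
  have hft : Fintype (IrrCharacter G) := Fintype.ofFinite _
  obtain ⟨c, hc1, hc2⟩ := Cfsg.Agent.CharDeep.CliffordCorr.exists_nat_coeffs_indFun
    H (ψ := fun _ => (1 : ℂ)) isCharacter_one
  choose e he using fun χ : IrrCharacter G =>
    classInner_isNat (isCharacter_restrict N (isIrr_isCharacter χ.2)) (isIrr_isCharacter hφ)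
  have he' : ∀ χ : IrrCharacter G, classInner (fun n : N => (χ : G → ℂ) n) φ = e χ := he
  -- the total
  have htot : classInner (fun n : N => indFun H (fun _ => (1 : ℂ)) n) φ =
      ((∑ χ : IrrCharacter G, c χ * e χ : ℕ) : ℂ) := by
    have h1 : (fun n : N => indFun H (fun _ => (1 : ℂ)) n) =
        ∑ χ : IrrCharacter G, (c χ : ℂ) • (fun n : N => (χ : G → ℂ) n) := by
      funext n
      have := congrFun hc1 n
      rw [this]
      simp only [Finset.sum_apply, Pi.smul_apply]
    rw [h1, classInner_sum_left]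
    push_cast
    refine Finset.sum_congr rfl fun χ _ => ?_
    rw [classInner_smul_left, he']
  have hodd : Odd (∑ χ : IrrCharacter G, c χ * e χ) := by
    rw [hin] at htot
    have : m = ∑ χ : IrrCharacter G, c χ * e χ := by exact_mod_cast htot
    rw [← this]
    exact hm
  -- invariance under conjugation
  have hcconj : ∀ χ : IrrCharacter G, c (irrConj χ) = c χ := by
    intro χ
    have h1 := hc2 (irrConj χ)
    have h2 := hc2 χ
    have h3 : classInner (fun _ : H => (1 : ℂ)) (fun h : H => (irrConj χ : G → ℂ) h) =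
        conj (classInner (fun _ : H => (1 : ℂ)) (fun h : H => (χ : G → ℂ) h)) := by
      rw [← classInner_conj_conj]
      simp only [map_one]
      rfl
    rw [h1, h2, Complex.conj_natCast] at h3
    exact_mod_cast h3
  have heconj : ∀ χ : IrrCharacter G, e (irrConj χ) = e χ := by
    intro χ
    obtain ⟨g, hg⟩ := hconj
    have h1 := he' (irrConj χ)
    have h2 : classInner (fun n : N => (irrConj χ : G → ℂ) n) φ =
        conj (classInner (fun n : N => (χ : G → ℂ) n)
          (φ ∘ (MulAut.conjNormal g : MulAut N))) := by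
      rw [← classInner_conj_conj]
      congr 1
      funext n
      simp only [Function.comp_apply]
      rw [hg, Complex.conj_conj]
    rw [classInner_restrict_conjNormal (isIrr_isClassFunction χ.2), he' χ, Complex.conj_natCast,
      h1] at h2
    exact_mod_cast h2
  obtain ⟨χ, hχr, hχo⟩ := exists_real_of_odd_sum (fun χ => c χ * e χ)
    (fun χ => by simp only [hcconj, heconj]) hodd
  rw [Nat.odd_mul] at hχo
  have hmult : classInner (fun s : H => (χ : G → ℂ) s) (fun _ => (1 : ℂ)) = c χ := by
    rw [← classInner_conj_symm, hc2, Complex.conj_natCast]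
  exact ⟨χ, hχr, ⟨e χ, hχo.2, he' χ⟩, ⟨c χ, hχo.1, hmult⟩⟩

/-- If `N` has a complement, real linear characters of `N` lie under real-valued irreducible
characters. -/
theorem exists_real_over_compl [Fintype G] (N : Subgroup G) [hN : N.Normal] [Fintype N]
    (H : Subgroup G) [Fintype H] (hd : N ⊓ H = ⊥) (hs : N ⊔ H = ⊤) {φ : N → ℂ}
    (hφ : IsIrrCharacter N φ) (hφ1 : φ 1 = 1) (hreal : ∀ n, (φ n).im = 0) :
    ∃ χ : IrrCharacter G, (∀ g, ((χ : G → ℂ) g).im = 0) ∧
      (∃ e : ℕ, Odd e ∧ classInner (fun n : N => (χ : G → ℂ) n) φ = e) := by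
  have hcN : (Nat.card N : ℂ) ≠ 0 := by exact_mod_cast Nat.card_pos.ne'
  have hcompl : Subgroup.IsComplement' N H := by
    refine Subgroup.isComplement'_of_disjoint_and_mul_eq_univ (disjoint_iff.2 hd) ?_
    rw [← Subgroup.normal_mul, hs]
    rfl
  have hHidx : H.index = Nat.card N := hcompl.index_eq_card
  have hin : classInner (fun n : N => indFun H (fun _ => (1 : ℂ)) n) φ = ((1 : ℕ) : ℂ) := by
    have h1 : (Nat.card N : ℂ) * classInner (fun n : N => indFun H (fun _ => (1 : ℂ)) n) φ =
        Nat.card N := by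
      unfold classInner
      rw [← mul_assoc, mul_inv_cancel₀ hcN, one_mul, Finset.sum_eq_single (1 : N)]
      · show indFun H (fun _ => (1 : ℂ)) ((1 : N) : G) * conj (φ 1) = _
        rw [OneMemClass.coe_one, Cfsg.Agent.CharactersDeep.NormalInd.indFun_one, hφ1, hHidx]
        simp
      · intro n _ hn
        have hz : indFun H (fun _ => (1 : ℂ)) (n : G) = 0 := by
          rw [Cfsg.Agent.CharactersDeep.NormalInd.indFun_apply]
          rw [Finset.sum_eq_zero, mul_zero]
          intro x _
          apply Cfsg.Agent.CharactersDeep.NormalInd.extendByZero_of_not_mem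
          intro hx
          have h2 : x⁻¹ * (n : G) * x ∈ N := by
            have := hN.conj_mem n n.2 x⁻¹
            rwa [inv_inv] at this
          have h3 : x⁻¹ * (n : G) * x ∈ N ⊓ H := ⟨h2, hx⟩
          rw [hd, Subgroup.mem_bot] at h3
          apply hn
          apply Subtype.ext
          have h4 : (n : G) = x * (x⁻¹ * (n : G) * x) * x⁻¹ := by group
          rw [h4, h3]
          simp
        show indFun H (fun _ => (1 : ℂ)) (n : G) * conj (φ n) = 0
        rw [hz, zero_mul]
      · intro h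
        exact absurd (Finset.mem_univ _) h
    rw [Nat.cast_one]
    exact mul_left_cancel₀ hcN (h1.trans (mul_one _).symm)
  obtain ⟨χ, h1, h2, -⟩ := exists_real_of_subgroup N H hφ ⟨1, fun n => by
    rw [map_one]
    exact (Complex.conj_eq_iff_im.2 (hreal n)).symm⟩ 1 odd_one hin
  exact ⟨χ, h1, h2⟩

/-- For `R` normal, `|R : T ∩ R|` divides `|G : T|`. -/
theorem relIndex_dvd_index [Finite G] (T R : Subgroup G) [R.Normal] : T.relIndex R ∣ T.index := by
  have h1 : (T ⊓ R).relIndex R * R.index = (T ⊓ R).index :=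
    Subgroup.relIndex_mul_index inf_le_right
  have h2 : (T ⊓ R).relIndex T * T.index = (T ⊓ R).index :=
    Subgroup.relIndex_mul_index inf_le_left
  rw [Subgroup.inf_relIndex_right] at h1
  rw [Subgroup.inf_relIndex_left] at h2
  obtain ⟨c, hc⟩ : R.relIndex T ∣ R.index := Subgroup.relIndex_dvd_index_of_normal R T
  have h3 : R.relIndex T ≠ 0 := by
    rw [Subgroup.relIndex]
    exact Subgroup.index_ne_zero_of_finite
  refine ⟨c, ?_⟩
  apply Nat.eq_of_mul_eq_mul_left (Nat.pos_of_ne_zero h3)
  rw [h2, ← h1, hc]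
  ring

/-- The stabilizer of a linear character not trivial on `[N, R]` has index divisible by `p`, for
`R / N` a normal `p`-subgroup. -/
theorem dvd_stab_index [Finite G] {p : ℕ} (hp : p.Prime) (N R : Subgroup G) [hN : N.Normal]
    [hR : R.Normal] (hab : ∀ a ∈ N, ∀ b ∈ N, a * b = b * a) {k : ℕ}
    (hk : N.relIndex R = p ^ k) (f : N →* ℂˣ)
    (hf : ∃ x ∈ R, ∃ n : N, f (MulAut.conjNormal x n) ≠ f n) :
    p ∣ (stab N (fun n => (f n : ℂ))).index := by
  set T := stab N (fun n => (f n : ℂ)) with hT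
  have hNT : N ≤ T := by
    intro g hg n
    have h1 : (⟨g * n * g⁻¹, hN.conj_mem n n.2 g⟩ : N) = n := by
      apply Subtype.ext
      show g * (n : G) * g⁻¹ = n
      rw [hab g hg n n.2, mul_inv_cancel_right]
    rw [h1]
  have h1 : T.relIndex R ∣ p ^ k := hk ▸ Subgroup.relIndex_dvd_of_le_left R hNT
  obtain ⟨i, -, hi⟩ := (Nat.dvd_prime_pow hp).1 h1
  have hi0 : i ≠ 0 := by
    rintro rfl
    rw [pow_zero, Subgroup.relIndex_eq_one] at hi
    obtain ⟨x, hx, n, hn⟩ := hf
    apply hn
    exact Units.ext (mem_stab'.1 (hi hx) n)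
  exact (hi ▸ dvd_pow_self p hi0 : p ∣ T.relIndex R).trans (relIndex_dvd_index T R)

/-- Homomorphisms of a finite abelian group into `ℂˣ` separate points. -/
theorem exists_hom_ne_one {A : Type*} [Group A] [Finite A] (hab : ∀ a b : A, a * b = b * a) {a : A}
    (ha : a ≠ 1) : ∃ f : A →* ℂˣ, f a ≠ 1 := by
  let _ : CommGroup A := { (inferInstance : Group A) with mul_comm := hab }
  have : HasEnoughRootsOfUnity ℂ (Monoid.exponent A) := by
    have : NeZero ((Monoid.exponent A : ℕ) : ℂ) := by
      refine ⟨?_⟩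
      exact_mod_cast Monoid.exponent_ne_zero_of_finite
    infer_instance
  exact CommGroup.exists_apply_ne_one_of_hasEnoughRootsOfUnity A ℂ ha

/-- If an element of 2-power order does not centralize the normal subgroup `N`, some element acts on
`N` as an involution. -/
theorem exists_involutory (N : Subgroup G) {h : G} {k : ℕ}
    (hk : orderOf h = 2 ^ k) (hc : ∃ n ∈ N, h * n ≠ n * h) :
    ∃ t : G, (∃ j, orderOf t = 2 ^ j) ∧ (∃ n ∈ N, t * n ≠ n * t) ∧ ∀ n ∈ N, t * t * n = n * (t * t) := by
  classical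
  have hex : ∃ i : ℕ, ∀ n ∈ N, h ^ (2 ^ i) * n = n * h ^ (2 ^ i) := by
    refine ⟨k, fun n _ => ?_⟩
    rw [← hk, pow_orderOf_eq_one, one_mul, mul_one]
  set i := Nat.find hex with hi
  have hspec : ∀ n ∈ N, h ^ (2 ^ i) * n = n * h ^ (2 ^ i) := Nat.find_spec hex
  have hi0 : i ≠ 0 := by
    intro h0
    rw [h0] at hspec
    obtain ⟨n, hn, hne⟩ := hc
    apply hne
    have := hspec n hn
    simpa using this
  obtain ⟨j, hj⟩ := Nat.exists_eq_succ_of_ne_zero hi0
  have hmin : ¬ ∀ n ∈ N, h ^ (2 ^ j) * n = n * h ^ (2 ^ j) :=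
    Nat.find_min hex (by omega)
  push Not at hmin
  refine ⟨h ^ (2 ^ j), ?_, hmin, ?_⟩
  · have h1 : orderOf (h ^ (2 ^ j)) ∣ 2 ^ k := hk ▸ orderOf_pow_dvd (2 ^ j)
    obtain ⟨l, -, hl⟩ := (Nat.dvd_prime_pow Nat.prime_two).1 h1
    exact ⟨l, hl⟩
  · intro n hn
    rw [← pow_add, ← two_mul, mul_comm, ← pow_succ, ← Nat.succ_eq_add_one, ← hj]
    exact hspec n hn

/-- If `t` acts on the abelian normal subgroup `N` as an involution, it inverts some nontrivial
linear character. -/
theorem exists_inverted [Finite G] (N : Subgroup G) [hN : N.Normal]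
    (hab : ∀ a ∈ N, ∀ b ∈ N, a * b = b * a) {t : G} (ht : ∃ n ∈ N, t * n ≠ n * t)
    (ht2 : ∀ n ∈ N, t * t * n = n * (t * t)) :
    ∃ f : N →* ℂˣ, (∃ n, f n ≠ 1) ∧ ∀ n : N, f (MulAut.conjNormal t n) = (f n)⁻¹ := by
  obtain ⟨n, hn, hne⟩ := ht
  set n0 : N := ⟨n, hn⟩ with hn0
  have h1 : MulAut.conjNormal t n0 * n0⁻¹ ≠ 1 := by
    intro h
    apply hne
    have h2 := congrArg Subtype.val h
    simp only [Subgroup.coe_mul, MulAut.conjNormal_apply, Subgroup.coe_inv, hn0,
      OneMemClass.coe_one] at h2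
    have h3 := mul_inv_eq_one.1 h2
    rw [mul_inv_eq_iff_eq_mul] at h3
    exact h3
  obtain ⟨μ, hμ⟩ := exists_hom_ne_one (A := N)
    (fun a b => Subtype.ext (hab a a.2 b b.2)) h1
  refine ⟨(μ.comp (MulAut.conjNormal t : MulAut N).toMonoidHom) * μ⁻¹, ⟨n0, ?_⟩, ?_⟩
  · rw [MonoidHom.mul_apply, MonoidHom.inv_apply, MonoidHom.comp_apply, ← map_inv, ← map_mul]
    exact hμ
  · intro x
    have h4 : MulAut.conjNormal t (MulAut.conjNormal t x) = x := by
      apply Subtype.ext
      rw [MulAut.conjNormal_apply, MulAut.conjNormal_apply]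
      have h5 := ht2 x x.2
      have h6 : t * (t * (x : G) * t⁻¹) * t⁻¹ = (t * t * (x : G)) * (t * t)⁻¹ := by group
      rw [h6, h5, mul_inv_cancel_right]
    simp only [MonoidHom.mul_apply, MonoidHom.inv_apply, MonoidHom.comp_apply,
      MulEquiv.coe_toMonoidHom, h4, mul_inv_rev, inv_inv]

/-- A linear character of the odd-order normal subgroup `N` inverted by an element of `G` lies under
a real-valued irreducible character. -/
theorem exists_real_over_hom [Fintype G] (N : Subgroup G) [hN : N.Normal] [Fintype N]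
    (hodd : Odd (Nat.card N)) (f : N →* ℂˣ) {t : G}
    (ht : ∀ n : N, f (MulAut.conjNormal t n) = (f n)⁻¹) :
    ∃ χ : IrrCharacter G, (∀ g, ((χ : G → ℂ) g).im = 0) ∧
      (∃ e : ℕ, Odd e ∧ classInner (fun n : N => (χ : G → ℂ) n) (fun n => (f n : ℂ)) = e) := by
  classical
  obtain ⟨S⟩ := (inferInstance : Nonempty (Sylow 2 G))
  have hfS : Fintype (S : Subgroup G) := Fintype.ofFinite _
  have hφi : IsIrrCharacter N (fun n => (f n : ℂ)) :=
    Cfsg.Agent.Characters.Linear.isIrrCharacter_hom f
  have hdef : 2 ^ (Nat.card N).factorization 2 ∣ charDegree (fun n : N => (f n : ℂ)) := by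
    rw [Nat.factorization_eq_zero_of_not_dvd (fun h => (Nat.not_even_iff_odd.2 hodd)
      (even_iff_two_dvd.2 h)), pow_zero]
    exact one_dvd _
  obtain ⟨χ, h1, -, h2, -⟩ := exists_real_over N S hφi hdef ⟨t, fun n => by
    rw [ht]
    have h3 := isCharacter_apply_inv (isIrr_isCharacter hφi) n
    simp only [map_inv] at h3
    exact h3⟩
  exact ⟨χ, h1, h2⟩

/-- **Key lemma.** -/
theorem key [Finite G] {p : ℕ} [hp : Fact p.Prime]
    (hreal : ∀ χ : IrrCharacter G, (∀ g : G, ((χ : G → ℂ) g).im = 0) →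
      ¬ p ∣ charDegree (χ : G → ℂ))
    (N R : Subgroup G) [hN : N.Normal] [hR : R.Normal] (hNR : N ≤ R)
    (hmin : ∀ M : Subgroup G, M.Normal → M ≤ N → M = ⊥ ∨ M = N)
    (hab : ∀ a ∈ N, ∀ b ∈ N, a * b = b * a) {r : ℕ} (hr : r.Prime) (hel : ∀ a ∈ N, a ^ r = 1)
    (hrp : r ≠ p) {k : ℕ} (hk : N.relIndex R = p ^ k) (hcomm : ⁅N, R⁆ ≠ ⊥) :
    r ≠ 2 ∧ ∀ h : G, (∃ k, orderOf h = 2 ^ k) → ∀ n ∈ N, h * n = n * h := by
  classical
  have hGf := Fintype.ofFinite G
  have hNf := Fintype.ofFinite N
  have hNr : IsPGroup r N := fun x => ⟨1, by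
    rw [pow_one]
    exact Subtype.ext (hel x x.2)⟩
  have hfr : Fact r.Prime := ⟨hr⟩
  obtain ⟨d, hd⟩ := hNr.exists_card_eq
  have hNR' : ⁅N, R⁆ = N := by
    rcases hmin ⁅N, R⁆ (Subgroup.commutator_normal N R) (Subgroup.commutator_le_left N R) with h | h
    · exact absurd h hcomm
    · exact h
  -- nontrivial linear characters are moved by `R`
  have hmove : ∀ f : N →* ℂˣ, (∃ n, f n ≠ 1) → ∃ x ∈ R, ∃ n : N, f (MulAut.conjNormal x n) ≠ f n := by
    intro f hf
    by_contra hcon
    push Not at hcon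
    obtain ⟨n0, hn0⟩ := hf
    apply hn0
    have h1 : ⁅N, R⁆ ≤ f.ker.map N.subtype := by
      rw [Subgroup.commutator_le]
      intro a ha x hx
      have h2 := hcon x hx (⟨a, ha⟩ : N)
      refine Subgroup.mem_map.2 ⟨⟨a, ha⟩ * (MulAut.conjNormal x ⟨a, ha⟩)⁻¹, ?_, ?_⟩
      · rw [MonoidHom.mem_ker, map_mul, map_inv, h2, mul_inv_cancel]
      · simp only [Subgroup.coe_subtype, Subgroup.coe_mul, Subgroup.coe_inv,
          MulAut.conjNormal_apply, commutatorElement_def, mul_inv_rev, inv_inv, mul_assoc]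
    rw [hNR'] at h1
    obtain ⟨y, hy, hy2⟩ := Subgroup.mem_map.1 (h1 n0.2)
    have : y = n0 := Subtype.ext hy2
    rw [← this]
    exact hy
  -- characters over a nontrivial linear character have degree divisible by `p`
  have hdiv : ∀ f : N →* ℂˣ, (∃ n, f n ≠ 1) → ∀ χ : IrrCharacter G,
      (∃ e : ℕ, Odd e ∧ classInner (fun n : N => (χ : G → ℂ) n) (fun n => (f n : ℂ)) = e) →
      p ∣ charDegree (χ : G → ℂ) := by
    rintro f hf χ ⟨e, heo, he⟩
    have he0 : e ≠ 0 := by
      rintro rfl
      exact Nat.not_odd_zero heo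
    obtain ⟨h1, -⟩ := degree_formula_nat N (Cfsg.Agent.Characters.Linear.isIrrCharacter_hom f)
      χ.2 he0 he
    rw [h1, mul_assoc]
    exact (dvd_stab_index hp.out N R hab hk f (hmove f hf)).mul_right _
  have hN1 : N ≠ ⊥ := by
    intro h
    apply hcomm
    rw [eq_bot_iff, ← h]
    exact Subgroup.commutator_le_left N R
  have hr2 : r ≠ 2 := by
    -- the case `r = 2`
    intro hr2
    obtain ⟨P⟩ := (inferInstance : Nonempty (Sylow p R))
    set P₁ : Subgroup G := (P : Subgroup R).map R.subtype with hP₁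
    have hP1R : P₁ ≤ R := Subgroup.map_subtype_le _
    have hpP : IsPGroup p P₁ := P.2.map _
    have hidx : ¬ p ∣ P₁.relIndex R := by
      have h1 : P₁.relIndex R = (P : Subgroup R).index := by
        rw [Subgroup.relIndex, hP₁, Subgroup.subgroupOf, Subgroup.comap_map_eq_self_of_injective
          R.subtype_injective]
      rw [h1]
      exact P.not_dvd_index
    have hsup : P₁ ⊔ N = R := by
      refine le_antisymm (sup_le hP1R hNR) ?_
      rw [← Subgroup.relIndex_eq_one]
      have h1 : (P₁ ⊔ N).relIndex R ∣ P₁.relIndex R :=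
        Subgroup.relIndex_dvd_of_le_left R le_sup_left
      have h2 : (P₁ ⊔ N).relIndex R ∣ N.relIndex R :=
        Subgroup.relIndex_dvd_of_le_left R le_sup_right
      rw [hk] at h2
      obtain ⟨i, -, hi⟩ := (Nat.dvd_prime_pow hp.out).1 h2
      rcases Nat.eq_zero_or_pos i with rfl | hi0
      · simpa using hi
      · exfalso
        apply hidx
        refine dvd_trans ?_ h1
        rw [hi]
        exact dvd_pow_self p hi0.ne'
    set H : Subgroup G := Subgroup.normalizer (P₁ : Set G) with hH
    have hfr := Sylow.normalizer_sup_eq_top P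
    have hNH : N ⊔ H = ⊤ := by
      rw [eq_top_iff, ← hfr]
      refine sup_le le_sup_right ?_
      refine hsup.symm.le.trans (sup_le ?_ le_sup_left)
      exact Subgroup.le_normalizer.trans le_sup_right
    have hdisjNP : N ⊓ P₁ = ⊥ := by
      rw [Subgroup.eq_bot_iff_forall]
      rintro x ⟨hx1, hx2⟩
      have h1 : orderOf x ∣ r := orderOf_dvd_of_pow_eq_one (hel x hx1)
      obtain ⟨j, hj⟩ := hpP.exists_orderOf_eq_pow ⟨x, hx2⟩
      rw [Subgroup.orderOf_mk] at hj
      rw [hj] at h1
      rcases Nat.eq_zero_or_pos j with h2 | h2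
      · rw [h2, pow_zero, orderOf_eq_one_iff] at hj
        exact hj
      · exfalso
        have h3 : p ∣ r := (dvd_pow_self p h2.ne').trans h1
        exact hrp ((Nat.prime_dvd_prime_iff_eq hp.out hr).1 h3).symm
    have hcap : N ⊓ H = ⊥ := by
      have hnorm : (N ⊓ H).Normal := by
        refine ⟨fun x hx g => ?_⟩
        have hg : g ∈ N ⊔ H := by rw [hNH]; trivial
        obtain ⟨n, hn, h, hh, rfl⟩ := Subgroup.mem_sup_of_normal_left.1 hg
        obtain ⟨hx1, hx2⟩ := hx
        have h1 : h * x * h⁻¹ ∈ N := hN.conj_mem x hx1 h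
        have h2 : n * h * x * (n * h)⁻¹ = h * x * h⁻¹ := by
          have : n * h * x * (n * h)⁻¹ = n * (h * x * h⁻¹) * n⁻¹ := by group
          rw [this, hab n hn _ h1, mul_inv_cancel_right]
        rw [h2]
        exact ⟨h1, H.mul_mem (H.mul_mem hh hx2) (H.inv_mem hh)⟩
      rcases hmin _ hnorm inf_le_left with h | h
      · exact h
      · exfalso
        apply hcomm
        have hNH' : N ≤ H := inf_eq_left.1 h
        have h3 : ⁅N, P₁⁆ ≤ N ⊓ P₁ := by
          refine le_inf (Subgroup.commutator_le_left N P₁) ?_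
          rw [Subgroup.commutator_le]
          intro a ha x hx
          have h4 := (Subgroup.mem_normalizer_iff.1 (hNH' ha) x).1 hx
          rw [commutatorElement_def]
          exact P₁.mul_mem h4 (P₁.inv_mem hx)
        rw [hdisjNP, le_bot_iff, Subgroup.commutator_comm,
          Subgroup.commutator_eq_bot_iff_le_centralizer] at h3
        rw [Subgroup.commutator_comm, Subgroup.commutator_eq_bot_iff_le_centralizer, ← hsup]
        refine sup_le h3 ?_
        intro a ha
        rw [Subgroup.mem_centralizer_iff]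
        intro b hb
        exact hab b hb a ha
    -- a nontrivial character of `N`
    obtain ⟨n0, hn0⟩ : ∃ n0 : N, n0 ≠ 1 := by
      by_contra hcon
      push Not at hcon
      apply hN1
      rw [Subgroup.eq_bot_iff_forall]
      intro x hx
      exact congrArg Subtype.val (hcon ⟨x, hx⟩)
    obtain ⟨f, hf⟩ := exists_hom_ne_one (A := N)
      (fun a b => Subtype.ext (hab a a.2 b b.2)) hn0
    have hfH : Fintype H := Fintype.ofFinite _
    obtain ⟨χ, hχ1, hχ2⟩ := exists_real_over_compl N H hcap hNH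
      (φ := fun n => (f n : ℂ)) (Cfsg.Agent.Characters.Linear.isIrrCharacter_hom f) (by simp)
      (by
        intro n
        have h1 : (f n) ^ 2 = 1 := by
          rw [← map_pow]
          have : n ^ 2 = 1 := by
            apply Subtype.ext
            rw [← hr2]
            exact hel n n.2
          rw [this, map_one]
        have h2 : (f n : ℂ) * (f n : ℂ) = 1 := by
          rw [← Units.val_mul, ← sq, h1, Units.val_one]
        rcases mul_self_eq_one_iff.1 h2 with h3 | h3 <;> rw [h3] <;> simp)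
    exact hreal χ hχ1 (hdiv f ⟨n0, hf⟩ χ hχ2)
  refine ⟨hr2, ?_⟩
  · -- all 2-elements centralize `N`
    intro h hh n hn
    by_contra hne
    have hodd : Odd (Nat.card N) := by
      rw [hd]
      exact (hr.odd_of_ne_two hr2).pow
    obtain ⟨k', hk'⟩ := hh
    obtain ⟨t, -, ht1, ht2⟩ := exists_involutory N hk' ⟨n, hn, hne⟩
    obtain ⟨f, hf1, hf2⟩ := exists_inverted N hab ht1 ht2
    obtain ⟨χ, hχ1, hχ2⟩ := exists_real_over_hom N hodd f hf2
    exact hreal χ hχ1 (hdiv f hf1 χ hχ2)

end Cfsg.Agent.H692.KeyReal
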