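import Mathlib
import Cfsg.Prelude.Def_Characters
import Cfsg.Prelude.Def_Blocks
import Cfsg.Agent.H692.KeyReal
set_option linter.all false

/-!
# Real characters of degree prime to `p` and normal Sylow subgroups

`G` with `O^{p'}(G)` solvable all of whose real-valued irreducible characters have degree prime to
`p`: `K = O^{2'}(G)` has a normal Sylow `p`-subgroup, and so has every normal subgroup `U ⊇ K` with
`|U : K|` a power of `p`.
-/

set_option autoImplicit false
open Cfsg

namespace Cfsg.Agent.H692.NormalSylow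

open Cfsg.Agent.Characters.Core Cfsg.Agent.Characters.Clifford
open Cfsg.Agent.H692.RealOver Cfsg.Agent.H692.NSyl Cfsg.Agent.H692.KeyReal
open scoped ComplexConjugate commutatorElement

universe u

/-- The hypothesis on real-valued characters. -/
def RealPrime (p : ℕ) (G : Type u) [Group G] : Prop :=
  ∀ χ : IrrCharacter G, (∀ g : G, ((χ : G → ℂ) g).im = 0) → ¬ p ∣ charDegree (χ : G → ℂ)

theorem RealPrime.of_surjective {p : ℕ} {G H : Type u} [Group G] [Group H]
    (h : RealPrime p G) (f : G →* H) (hf : Function.Surjective f) : RealPrime p H := by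
  intro χ hχ hp
  refine h ⟨_, isIrr_comp f hf χ.2⟩ (fun g => hχ (f g)) ?_
  have : charDegree ((χ : H → ℂ) ∘ f) = charDegree (χ : H → ℂ) := by
    unfold charDegree
    rw [Function.comp_apply, map_one]
  show p ∣ charDegree ((χ : H → ℂ) ∘ f)
  rw [this]
  exact hp

variable {G : Type u} [Group G]

/-- Transitivity. -/
theorem HasNSyl.trans_index [Finite G] {p : ℕ} [hp : Fact p.Prime] {R W : Subgroup G}
    (h : HasNSyl p R) (hRW : R ≤ W) (hi : ¬ p ∣ R.relIndex W) : HasNSyl p W := by
  obtain ⟨P, h1, h2, h3, h4⟩ := h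
  refine ⟨P, h1, h2, h3.trans hRW, ?_⟩
  rw [← Subgroup.relIndex_mul_relIndex P R W h3 hRW, hp.out.dvd_mul]
  exact not_or.2 ⟨h4, hi⟩

theorem mem_pGen {p : ℕ} {g : G} {k : ℕ} (h : orderOf g = p ^ k) : g ∈ pGen p G :=
  Subgroup.subset_closure ⟨k, h⟩

/-- If `Y ≤ W` contains all `p`-elements of `W` then `|W : Y|` is prime to `p`. -/
theorem not_dvd_relIndex [Finite G] {p : ℕ} [hp : Fact p.Prime] {Y W : Subgroup G} [hY : Y.Normal]
    (h : pGen p G ⊓ W ≤ Y) : ¬ p ∣ Y.relIndex W := by
  intro hd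
  rw [Subgroup.relIndex, Subgroup.index] at hd
  obtain ⟨x, hx⟩ := exists_prime_orderOf_dvd_card' p hd
  have hsurj := QuotientGroup.mk'_surjective (Y.subgroupOf W)
  obtain ⟨g, hg, j, hj⟩ := exists_lift hp.out (QuotientGroup.mk' (Y.subgroupOf W)) hsurj
    (h := x) (k := 1) (by rw [hx, pow_one])
  have h1 : (g : G) ∈ pGen p G := mem_pGen (k := j) (by rw [Subgroup.orderOf_coe, hj])
  have h2 : (g : G) ∈ Y := h ⟨h1, g.2⟩
  have h3 : g ∈ (QuotientGroup.mk' (Y.subgroupOf W)).ker := by
    rw [QuotientGroup.ker_mk', Subgroup.mem_subgroupOf]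
    exact h2
  rw [MonoidHom.mem_ker, hg] at h3
  rw [h3, orderOf_one] at hx
  exact hp.out.one_lt.ne hx

theorem isSolvable_of_le {H K : Subgroup G} (h : H ≤ K) (hK : Group.IsSolvable K) :
    Group.IsSolvable H := by
  have := hK
  exact Group.isSolvable_of_isSolvable_injective (f := Subgroup.inclusion h)
    (Subgroup.inclusion_injective h)

theorem isSolvable_map {H : Type*} [Group H] (f : G →* H) {K : Subgroup G}
    (hK : Group.IsSolvable K) : Group.IsSolvable (K.map f) := by
  have := hK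
  exact Group.isSolvable_of_surjective (f.subgroupMap_surjective K)

/-- Lifting when the kernel is a `p`-group. -/
theorem hasNSyl_of_pGroup [Finite G] {p : ℕ} [hp : Fact p.Prime] {N R W : Subgroup G}
    (hR : R.Normal) (hN : IsPGroup p N) (hNR : N ≤ R) (hRW : R ≤ W) {k : ℕ}
    (hk : N.relIndex R = p ^ k) (hi : ¬ p ∣ R.relIndex W) : HasNSyl p W := by
  refine ⟨R, hR, ?_, hRW, hi⟩
  obtain ⟨d, hd⟩ := IsPGroup.iff_card.1 hN
  apply IsPGroup.of_card (n := d + k)
  rw [pow_add, ← hd, ← hk, ← Subgroup.relIndex_bot_left, ← Subgroup.relIndex_bot_left]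
  exact (Subgroup.relIndex_mul_relIndex ⊥ N R bot_le hNR).symm

/-- If all 2-elements centralize `N`, so does `pGen 2 G`. -/
theorem commutator_pGen {N : Subgroup G}
    (h : ∀ h : G, (∃ k, orderOf h = 2 ^ k) → ∀ n ∈ N, h * n = n * h) : ⁅N, pGen 2 G⁆ = ⊥ := by
  rw [Subgroup.commutator_comm, Subgroup.commutator_eq_bot_iff_le_centralizer]
  unfold pGen
  rw [Subgroup.closure_le]
  intro x hx
  show x ∈ Subgroup.centralizer (N : Set G)
  rw [Subgroup.mem_centralizer_iff]
  intro n hn
  exact (h x hx n hn).symm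

/-- **The subgroup generated by the 2-elements has a normal Sylow `p`-subgroup.** -/
theorem hasNSyl_two (p : ℕ) [hp : Fact p.Prime] (n : ℕ) :
    ∀ (G : Type u) [Group G] [Finite G], Nat.card G = n → Group.IsSolvable (pGen p G) →
      RealPrime p G → HasNSyl p (pGen 2 G) := by
  induction n using Nat.strong_induction_on with
  | _ n ih =>
  intro G _ _ hn hs hreal
  have hKn : (pGen 2 G).Normal := pGen_normal 2
  have hEn : (pGen p G).Normal := pGen_normal p
  set K := pGen 2 G with hK
  by_cases hX : pGen p G ⊓ K = ⊥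
  · refine ⟨⊥, inferInstance, IsPGroup.of_bot, bot_le, ?_⟩
    exact not_dvd_relIndex hX.le
  · obtain ⟨N, hNn, hNX, hN1, hmin⟩ := exists_minimal_normal (pGen p G ⊓ K) inferInstance hX
    obtain ⟨hab, r, hr, hel⟩ := elementary_of_minimal N hNn hN1 hmin
      (isSolvable_of_le (hNX.trans inf_le_left) hs)
    have hNK : N ≤ K := hNX.trans inf_le_right
    have hlt : Nat.card (G ⧸ N) < n := by
      rw [← hn]
      have h1 : Nat.card G = Nat.card (G ⧸ N) * Nat.card N :=
        Subgroup.card_eq_card_quotient_mul_card_subgroup N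
      have h2 : 1 < Nat.card N := by
        rw [Finite.one_lt_card_iff_nontrivial]
        exact (Subgroup.nontrivial_iff_ne_bot N).2 hN1
      have h3 : 0 < Nat.card (G ⧸ N) := Nat.card_pos
      rw [h1]
      nlinarith
    have hIH := ih _ hlt (G ⧸ N) rfl (by
      rw [← map_pGen hp.out _ (QuotientGroup.mk'_surjective N)]
      exact isSolvable_map _ hs)
      (hreal.of_surjective _ (QuotientGroup.mk'_surjective N))
    rw [← map_pGen Nat.prime_two _ (QuotientGroup.mk'_surjective N)] at hIH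
    obtain ⟨R, hRn, hNR, hRK, ⟨k, hk⟩, hidx⟩ := HasNSyl.lift hNn hNK hIH
    by_cases hrp : r = p
    · refine hasNSyl_of_pGroup hRn (fun x => ⟨1, ?_⟩) hNR hRK hk hidx
      rw [pow_one, ← hrp]
      exact Subtype.ext (hel x x.2)
    by_cases hc : ⁅N, R⁆ = ⊥
    · exact HasNSyl.trans_index (hasNSyl_of_commute hRn hNR hk hc) hRK hidx
    · exfalso
      obtain ⟨-, h2⟩ := key hreal N R hNR hmin hab hr hel hrp hk hc
      apply hc
      rw [eq_bot_iff, ← commutator_pGen h2]
      exact Subgroup.commutator_mono le_rfl hRK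

/-- Elements of odd prime order of `K = pGen 2 G` lie in the derived subgroup of `K`. -/
theorem mem_commutator_of_odd [Finite G] {r : ℕ} (hr : r.Prime) (hr2 : r ≠ 2) {x : G}
    (hx : x ∈ pGen 2 G) (hxr : x ^ r = 1) : x ∈ ⁅pGen 2 G, pGen 2 G⁆ := by
  have hKn : (pGen 2 G).Normal := pGen_normal 2
  set D := ⁅pGen 2 G, pGen 2 G⁆ with hD
  have hDn : D.Normal := Subgroup.commutator_normal _ _
  let π := QuotientGroup.mk' D
  have hcomm : ∀ a ∈ pGen 2 G, ∀ b ∈ pGen 2 G, Commute (π a) (π b) := by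
    intro a ha b hb
    have h1 : ⁅a, b⁆ ∈ D := Subgroup.commutator_mem_commutator ha hb
    have h2 : π ⁅a, b⁆ = 1 := by
      rw [← MonoidHom.mem_ker, QuotientGroup.ker_mk']
      exact h1
    rw [map_commutatorElement] at h2
    exact commutatorElement_eq_one_iff_commute.1 h2
  have key : ∀ y ∈ pGen 2 G, y ∈ pGen 2 G ∧ ∃ j : ℕ, (π y) ^ (2 ^ j) = 1 := by
    intro y hy
    refine ⟨hy, ?_⟩
    unfold pGen at hy
    induction hy using Subgroup.closure_induction with
    | mem y hy =>
      obtain ⟨k, hk⟩ := hy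
      refine ⟨k, ?_⟩
      rw [← map_pow, ← hk, pow_orderOf_eq_one, map_one]
    | one => exact ⟨0, by simp⟩
    | mul a b ha hb iha ihb =>
      obtain ⟨i, hi⟩ := iha
      obtain ⟨j, hj⟩ := ihb
      refine ⟨i + j, ?_⟩
      rw [map_mul, (hcomm a ha b hb).mul_pow, pow_add]
      nth_rewrite 1 [pow_mul]
      rw [hi, one_pow, mul_comm, pow_mul, hj, one_pow, one_mul]
    | inv a ha iha =>
      obtain ⟨i, hi⟩ := iha
      refine ⟨i, ?_⟩
      rw [map_inv, inv_pow, hi, inv_one]
  obtain ⟨-, j, hj⟩ := key x hx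
  have h1 : (π x) ^ r = 1 := by rw [← map_pow, hxr, map_one]
  have h2 : orderOf (π x) ∣ 1 := by
    have h3 : Nat.Coprime (2 ^ j) r := by
      apply Nat.Coprime.pow_left
      exact (Nat.coprime_primes Nat.prime_two hr).2 (Ne.symm hr2)
    rw [← (h3 : Nat.gcd (2 ^ j) r = 1)]
    exact Nat.dvd_gcd (orderOf_dvd_of_pow_eq_one hj) (orderOf_dvd_of_pow_eq_one h1)
  have h4 : π x = 1 := orderOf_eq_one_iff.1 (Nat.dvd_one.1 h2)
  rw [← MonoidHom.mem_ker, QuotientGroup.ker_mk'] at h4
  exact h4

/-- **Normal subgroups `U ⊇ K = pGen 2 G` with `|U : K|` a power of `p` have a normal Sylow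
`p`-subgroup.** -/
theorem hasNSyl_over (p : ℕ) [hp : Fact p.Prime] (n : ℕ) :
    ∀ (G : Type u) [Group G] [Finite G], Nat.card G = n → Group.IsSolvable (pGen p G) →
      RealPrime p G → ∀ U : Subgroup G, U.Normal → pGen 2 G ≤ U →
        (∃ a : ℕ, (pGen 2 G).relIndex U = p ^ a) → HasNSyl p U := by
  induction n using Nat.strong_induction_on with
  | _ n ih =>
  intro G _ _ hn hs hreal U hUn hKU hUa
  obtain ⟨a, ha⟩ := hUa
  have hKn : (pGen 2 G).Normal := pGen_normal 2
  have hEn : (pGen p G).Normal := pGen_normal p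
  set K := pGen 2 G with hK
  -- the inductive step for a nontrivial normal subgroup
  have step : ∀ N : Subgroup G, N.Normal → N ≠ ⊥ → N ≤ K →
      ∃ R : Subgroup G, R.Normal ∧ N ≤ R ∧ R ≤ U ∧ (∃ k, N.relIndex R = p ^ k) ∧
        ¬ p ∣ R.relIndex U := by
    intro N hNn hN1 hNK
    have hlt : Nat.card (G ⧸ N) < n := by
      rw [← hn]
      have h1 : Nat.card G = Nat.card (G ⧸ N) * Nat.card N :=
        Subgroup.card_eq_card_quotient_mul_card_subgroup N
      have h2 : 1 < Nat.card N := by
        rw [Finite.one_lt_card_iff_nontrivial]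
        exact (Subgroup.nontrivial_iff_ne_bot N).2 hN1
      have h3 : 0 < Nat.card (G ⧸ N) := Nat.card_pos
      rw [h1]
      nlinarith
    have hsurj := QuotientGroup.mk'_surjective N
    have hIH := ih _ hlt (G ⧸ N) rfl (by
      rw [← map_pGen hp.out _ hsurj]
      exact isSolvable_map _ hs) (hreal.of_surjective _ hsurj)
      (U.map (QuotientGroup.mk' N)) (Subgroup.Normal.map hUn _ hsurj)
      (by
        rw [← map_pGen Nat.prime_two _ hsurj]
        exact Subgroup.map_mono hKU)
      ⟨a, by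
        rw [← map_pGen Nat.prime_two _ hsurj, Subgroup.relIndex_map_map, QuotientGroup.ker_mk',
          sup_eq_left.2 hNK, sup_eq_left.2 (hNK.trans hKU)]
        exact ha⟩
    exact HasNSyl.lift hNn (hNK.trans hKU) hIH
  obtain ⟨P₀, hP1, hP2, hP3, hP4⟩ := hasNSyl_two p n G hn hs hreal
  by_cases hP0 : P₀ = ⊥
  · -- `K` is a `p'`-group
    rw [hP0, Subgroup.relIndex_bot_left] at hP4
    by_cases hX : pGen p G ⊓ U ⊓ K = ⊥
    · -- the `p`-elements of `U` generate a `p`-group
      have hXn : (pGen p G ⊓ U).Normal := inferInstance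
      refine ⟨pGen p G ⊓ U, hXn, ?_, inf_le_right, not_dvd_relIndex le_rfl⟩
      set X := pGen p G ⊓ U with hXdef
      have h1 : K.relIndex X = Nat.card X := by
        rw [← Subgroup.inf_relIndex_right, inf_comm, hX, Subgroup.relIndex_bot_left]
      have h2 : K.relIndex X ∣ p ^ a := by
        rw [← ha, ← Subgroup.relIndex_sup_right X K]
        refine Dvd.intro ((X ⊔ K).relIndex U) ?_
        exact Subgroup.relIndex_mul_relIndex K (X ⊔ K) U le_sup_right
          (sup_le inf_le_right hKU)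
      rw [h1] at h2
      obtain ⟨i, -, hi⟩ := (Nat.dvd_prime_pow hp.out).1 h2
      exact IsPGroup.of_card hi
    · obtain ⟨N, hNn, hNX, hN1, hmin⟩ := exists_minimal_normal (pGen p G ⊓ U ⊓ K) inferInstance hX
      have hNK : N ≤ K := hNX.trans inf_le_right
      obtain ⟨hab, r, hr, hel⟩ := elementary_of_minimal N hNn hN1 hmin
        (isSolvable_of_le (hNX.trans (inf_le_left.trans inf_le_left)) hs)
      have hrp : r ≠ p := by
        rintro rfl
        apply hP4
        obtain ⟨x, hx1⟩ := Subgroup.ne_bot_iff_exists_ne_one.1 hN1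
        have h1 : orderOf (x : G) = r := by
          refine orderOf_eq_prime (hel x x.2) ?_
          intro h
          exact hx1 (Subtype.ext h)
        have h2 : orderOf (⟨x, hNK x.2⟩ : K) ∣ Nat.card K := orderOf_dvd_natCard _
        rwa [Subgroup.orderOf_mk, h1] at h2
      obtain ⟨R, hRn, hNR, hRU, ⟨k, hk⟩, hidx⟩ := step N hNn hN1 hNK
      by_cases hc : ⁅N, R⁆ = ⊥
      · exact HasNSyl.trans_index (hasNSyl_of_commute hRn hNR hk hc) hRU hidx
      · exfalso
        obtain ⟨hr2, h2⟩ := key hreal N R hNR hmin hab hr hel hrp hk hc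
        have hNK2 := commutator_pGen h2
        -- `K ⊓ R = N`
        have hKR : K ⊓ R ≤ N := by
          rw [← Subgroup.relIndex_eq_one]
          have h3 : N.relIndex (K ⊓ R) ∣ p ^ k := by
            rw [← hk]
            exact Dvd.intro _ (Subgroup.relIndex_mul_relIndex N (K ⊓ R) R (le_inf hNK hNR)
              inf_le_right)
          obtain ⟨i, -, hi⟩ := (Nat.dvd_prime_pow hp.out).1 h3
          rcases Nat.eq_zero_or_pos i with rfl | hi0
          · simpa using hi
          · exfalso
            apply hP4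
            refine dvd_trans ?_ (Subgroup.card_dvd_of_le (inf_le_left : K ⊓ R ≤ K))
            refine dvd_trans ?_ (Subgroup.relIndex_dvd_card N (K ⊓ R))
            rw [hi]
            exact dvd_pow_self p hi0.ne'
        have hKRc : ⁅K, R⁆ ≤ N :=
          (le_inf (Subgroup.commutator_le_left K R) (Subgroup.commutator_le_right K R)).trans hKR
        have h4 : ⁅⁅K, R⁆, K⁆ = ⊥ := by
          rw [eq_bot_iff, ← hNK2]
          exact Subgroup.commutator_mono hKRc le_rfl
        have h5 : ⁅⁅K, K⁆, R⁆ = ⊥ :=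
          Subgroup.commutator_commutator_eq_bot_of_rotate h4
            (by rw [Subgroup.commutator_comm R K]; exact h4)
        apply hc
        rw [eq_bot_iff, ← h5]
        refine Subgroup.commutator_mono ?_ le_rfl
        intro x hx
        exact mem_commutator_of_odd hr hr2 (hNK hx) (hel x hx)
  · obtain ⟨R, hRn, hNR, hRU, ⟨k, hk⟩, hidx⟩ := step P₀ hP1 hP0 hP3
    exact hasNSyl_of_pGroup hRn hP2 hNR hRU hk hidx

end Cfsg.Agent.H692.NormalSylow
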